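import Mathlib
import Cfsg.Agent.Lib.Helper80.CTDefs

set_option autoImplicit false

namespace Cfsg.Agent.Lib.Lead.CTEPOW

open Cfsg.Agent.Lib.Helper80.CT

variable {G : Type*} [Group G] [Finite G]

/-- piece EPOW -/
theorem card_invol_abelian (A : Subgroup G) (hA : ∀ x ∈ A, ∀ y ∈ A, Commute x y) :
    ∃ f : ℕ, Nat.card {x : G // x ∈ A ∧ orderOf x = 2} + 1 = 2 ^ f ∧ 2 ^ f ∣ Nat.card A := by
  classical
  -- the subgroup of elements of A of square one
  let E : Subgroup G :=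
    { carrier := {x | x ∈ A ∧ x ^ 2 = 1}
      mul_mem' := by
        rintro x y ⟨hx, hx2⟩ ⟨hy, hy2⟩
        refine ⟨A.mul_mem hx hy, ?_⟩
        rw [(hA x hx y hy).mul_pow, hx2, hy2, one_mul]
      one_mem' := ⟨A.one_mem, one_pow 2⟩
      inv_mem' := by
        rintro x ⟨hx, hx2⟩
        exact ⟨A.inv_mem hx, by rw [inv_pow, hx2, inv_one]⟩ }
  have hEmem : ∀ x : G, x ∈ E ↔ x ∈ A ∧ x ^ 2 = 1 := fun x => Iff.rfl
  have hEA : E ≤ A := fun x hx => hx.1
  have hp : IsPGroup 2 E := by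
    intro g
    refine ⟨1, ?_⟩
    have := g.2.2
    ext
    simpa using this
  obtain ⟨f, hf⟩ := IsPGroup.iff_card.mp hp
  refine ⟨f, ?_, ?_⟩
  · rw [← hf]
    have hset : (E : Set G) = insert 1 {x : G | x ∈ A ∧ orderOf x = 2} := by
      ext x
      rw [SetLike.mem_coe, hEmem, Set.mem_insert_iff]
      show x ∈ A ∧ x ^ 2 = 1 ↔ x = 1 ∨ (x ∈ A ∧ orderOf x = 2)
      constructor
      · rintro ⟨hx, hx2⟩
        by_cases h1 : x = 1
        · left; exact h1
        · right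
          exact ⟨hx, (orderOf_eq_prime_iff (p := 2)).mpr ⟨hx2, h1⟩⟩
      · rintro (rfl | ⟨hx, ho⟩)
        · exact ⟨A.one_mem, one_pow 2⟩
        · exact ⟨hx, by rw [← ho]; exact pow_orderOf_eq_one x⟩
    have h1 : Nat.card E = (E : Set G).ncard := (Nat.card_coe_set_eq _)
    have h2 : Nat.card {x : G // x ∈ A ∧ orderOf x = 2} =
        ({x : G | x ∈ A ∧ orderOf x = 2} : Set G).ncard := (Nat.card_coe_set_eq _)
    rw [h1, h2, hset, Set.ncard_insert_of_notMem]
    · intro h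
      have : orderOf (1 : G) = 2 := h.2
      rw [orderOf_one] at this
      omega
  · rw [← hf]
    exact Subgroup.card_dvd_of_le hEA

end Cfsg.Agent.Lib.Lead.CTEPOW
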