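import Mathlib
import Cfsg.Agent.Lib.Helper4.FCDefs

/-! Project FC (S4146, architect helper4), piece FIXPT. -/

set_option autoImplicit false

namespace Cfsg.Agent.Lib.Helper4.FC

universe u

theorem fc_fixpt : FixPtStmt.{u} := by
  intro G _ _ t V1 u ht hV1 hp hne hu
  haveI := hV1
  haveI : Fact t.Prime := ⟨ht⟩
  obtain ⟨k, hk⟩ := hu
  have hP : IsPGroup t (Subgroup.zpowers u) := by
    apply IsPGroup.of_card (n := k)
    rw [Nat.card_zpowers, hk]
  letI : MulAction (Subgroup.zpowers u) V1 :=
    MulAction.compHom V1 ((MulAut.conjNormal (H := V1)).comp (Subgroup.zpowers u).subtype)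
  have hdvd : t ∣ Nat.card V1 := by
    rcases hp.card_eq_or_dvd with h | h
    · exact absurd (Subgroup.card_eq_one.1 h) hne
    · exact h
  have h1 : (1 : V1) ∈ MulAction.fixedPoints (Subgroup.zpowers u) V1 := by
    intro h
    show (MulAut.conjNormal (H := V1) (h : G)) 1 = 1
    exact map_one _
  obtain ⟨b, hb, hb1⟩ := hP.exists_fixed_point_of_prime_dvd_card_of_fixed_point V1 hdvd h1
  refine ⟨b, b.2, ?_, ?_⟩
  · intro h
    apply hb1
    exact Subtype.ext h.symm
  · have h2 := hb ⟨u, Subgroup.mem_zpowers u⟩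
    have h3 : (MulAut.conjNormal (H := V1) u) b = b := h2
    have h4 := congrArg (fun v : V1 => (v : G)) h3
    simp only [MulAut.conjNormal_apply] at h4
    calc u * b = u * b * u⁻¹ * u := by group
      _ = b * u := by rw [h4]

end Cfsg.Agent.Lib.Helper4.FC
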