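import Mathlib
import Cfsg.Agent.Lib.Helper4.FCDefs

/-! Project FC (S4146, architect helper4), piece W1. -/

set_option autoImplicit false

namespace Cfsg.Agent.Lib.Helper4.FC

universe u

theorem w1_lead_relIndex_dvd {G : Type u} [Group G] [Finite G] (H N : Subgroup G)
    [N.Normal] : H.relIndex N ∣ H.index := by
  have h1 : H.relIndex (H ⊔ N) * Nat.card H = Nat.card (H ⊔ N : Subgroup G) := by
    rw [← Subgroup.relIndex_bot_left, mul_comm, ← Subgroup.relIndex_bot_left]
    exact Subgroup.relIndex_mul_relIndex ⊥ H (H ⊔ N) bot_le le_sup_left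
  have h2 : N.relIndex (H ⊔ N) * Nat.card N = Nat.card (H ⊔ N : Subgroup G) := by
    rw [← Subgroup.relIndex_bot_left, mul_comm, ← Subgroup.relIndex_bot_left]
    exact Subgroup.relIndex_mul_relIndex ⊥ N (H ⊔ N) bot_le le_sup_right
  rw [Subgroup.relIndex_sup_right] at h2
  have h3 : H.relIndex N * Nat.card (H ⊓ N : Subgroup G) = Nat.card N := by
    rw [← Subgroup.inf_relIndex_right, ← Subgroup.relIndex_bot_left, mul_comm,
      ← Subgroup.relIndex_bot_left]
    exact Subgroup.relIndex_mul_relIndex ⊥ (H ⊓ N) N bot_le inf_le_right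
  have h4 : N.relIndex H * Nat.card (H ⊓ N : Subgroup G) = Nat.card H := by
    rw [← Subgroup.inf_relIndex_left, ← Subgroup.relIndex_bot_left, mul_comm,
      ← Subgroup.relIndex_bot_left]
    exact Subgroup.relIndex_mul_relIndex ⊥ (H ⊓ N) H bot_le inf_le_left
  have hpos : 0 < Nat.card H := Nat.card_pos
  have heq : H.relIndex (H ⊔ N) * Nat.card H = H.relIndex N * Nat.card H := by
    rw [h1, ← h2, ← h3, ← h4]; ring
  rw [← Nat.eq_of_mul_eq_mul_right hpos heq]
  exact Subgroup.relIndex_dvd_index_of_le le_sup_left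

theorem fc_w1 : W1Stmt.{u} := by
  intro G _ _ K b hK hcop
  haveI := hK
  have h1 : (Cen b).relIndex K ∣ cs b := w1_lead_relIndex_dvd (Cen b) K
  have h2 : (Cen b).relIndex K ∣ Nat.card K := Subgroup.relIndex_dvd_card _ _
  have h3 : (Cen b).relIndex K = 1 := by
    have h4 := Nat.dvd_gcd h2 h1
    rw [Nat.Coprime.gcd_eq_one hcop] at h4
    exact Nat.dvd_one.1 h4
  exact Subgroup.relIndex_eq_one.1 h3

end Cfsg.Agent.Lib.Helper4.FC
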