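import Mathlib
import Cfsg.Agent.Lib.Helper4.FCDefs

/-! Project FC (S4146, architect helper4), piece Z2D. -/

set_option autoImplicit false

namespace Cfsg.Agent.Lib.Helper4.FC

universe u

theorem fc_z2d : Z2DStmt.{u} := by
  intro K _ _ φ x d hcop hx hd
  have key : ∀ k : ℕ, (φ ^ k) x = x * d ^ k := by
    intro k
    induction k with
    | zero => simp
    | succ k ih =>
      rw [pow_succ', MulAut.mul_apply, ih, map_mul, map_pow, hx, hd, pow_succ', mul_assoc]
  have h1 := key (orderOf φ)
  rw [pow_orderOf_eq_one, MulAut.one_apply] at h1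
  have h2 : d ^ orderOf φ = 1 := by
    have h := mul_left_cancel (a := x) (b := 1) (c := d ^ orderOf φ) (by rw [mul_one]; exact h1)
    exact h.symm
  have h3 : orderOf d ∣ orderOf φ := orderOf_dvd_of_pow_eq_one h2
  have h4 : orderOf d ∣ Nat.card K := orderOf_dvd_natCard d
  have h5 : orderOf d = 1 := by
    have h6 := Nat.dvd_gcd h3 h4
    rw [Nat.Coprime.gcd_eq_one hcop] at h6
    exact Nat.dvd_one.1 h6
  exact orderOf_eq_one_iff.1 h5

end Cfsg.Agent.Lib.Helper4.FC
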